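import Cfsg.Agent.H48.OddInvolution

/-!
# The rank-one set-up: a doubly transitive group whose point stabiliser is `Q D`

Elementary consequences of `Cfsg.IsRankOneSetup`: regularity of `Q`, canonical forms,
involutions and their fixed points, the set `K` of elements of `D` inverted by `t`.
-/

set_option autoImplicit false

namespace Cfsg.Agent.H48.RankOne

open Cfsg MulAction

variable {G Ω : Type*} [Group G] [MulAction G Ω] {a : Ω} {t : G} {Q : Subgroup G}

local notation "D" => (MulAction.stabilizer G a ⊓ MulAction.stabilizer G (t • a))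
local notation "K" =>
  Cfsg.invertedBy (MulAction.stabilizer G a ⊓ MulAction.stabilizer G (t • a)) t
local notation "I₀" => Cfsg.involutionsIn (MulAction.stabilizer G a : Set G)

variable (hS : Cfsg.IsRankOneSetup G Ω a t Q)
include hS

/-- `t⁻¹ = t`. -/
theorem t_inv : t⁻¹ = t := inv_eq_of_mul_eq_one_right hS.mul_self

/-- `t` moves `a`. -/
theorem ta_ne : t • a ≠ a := hS.not_mem

/-- `t` swaps the two distinguished points. -/
theorem t_ta : t • (t • a) = a := by rw [← mul_smul, hS.mul_self, one_smul]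

/-- Double transitivity on ordered pairs. -/
theorem exists_pair {c₁ c₂ d₁ d₂ : Ω} (hc : c₁ ≠ c₂) (hd : d₁ ≠ d₂) :
    ∃ g : G, g • c₁ = d₁ ∧ g • c₂ = d₂ :=
  MulAction.is_two_pretransitive_iff.1 hS.two_transitive hc hd

/-- Transitivity. -/
theorem exists_smul_eq (c : Ω) : ∃ g : G, g • a = c := by
  rcases eq_or_ne c a with rfl | hc
  · exact ⟨1, one_smul _ _⟩
  · obtain ⟨g, h1, -⟩ := exists_pair hS (ta_ne hS).symm hc
    exact ⟨g, h1⟩

/-- Conjugation by elements of `G_a` preserves `Q`. -/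
theorem conj_Q {h x : G} (hh : h • a = a) (hx : x ∈ Q) : h * x * h⁻¹ ∈ Q := hS.conj_mem h hh x hx

/-- `D` normalises `Q`. -/
theorem conj_Q_of_mem_D {h x : G} (hh : h ∈ D) (hx : x ∈ Q) : h * x * h⁻¹ ∈ Q := conj_Q hS hh.1 hx

/-- `D` normalises `Q`, the other way. -/
theorem conj_Q_of_mem_D' {h x : G} (hh : h ∈ D) (hx : x ∈ Q) : h⁻¹ * x * h ∈ Q := by
  simpa using conj_Q_of_mem_D hS (inv_mem hh) hx

/-- The factorisation `G_a = Q D`. -/
theorem exists_QD {h : G} (hh : h • a = a) : ∃ q ∈ Q, ∃ d ∈ D, h = q * d := by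
  have hle : D ≤ Subgroup.normalizer (Q : Set G) :=
    Subgroup.le_normalizer_iff.2 fun d hd x hx => conj_Q_of_mem_D hS hd hx
  have h1 : h⁻¹ ∈ ((D ⊔ Q : Subgroup G) : Set G) := by
    rw [sup_comm, hS.sup_eq]
    exact inv_mem (show h ∈ MulAction.stabilizer G a from hh)
  rw [Subgroup.coe_mul_of_left_le_normalizer_right _ _ hle] at h1
  obtain ⟨d, hd, q, hq, he⟩ := Set.mem_mul.1 h1
  exact ⟨q⁻¹, inv_mem hq, d⁻¹, inv_mem hd, by rw [← mul_inv_rev, he, inv_inv]⟩

/-- An element of `Q` fixing `t • a` is trivial. -/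
theorem eq_one_of_fix_ta {x : G} (hx : x ∈ Q) (h : x • (t • a) = t • a) : x = 1 := by
  have : x ∈ Q ⊓ MulAction.stabilizer G (t • a) := ⟨hx, h⟩
  rw [hS.inf_eq_bot] at this
  exact Subgroup.mem_bot.1 this

/-- A nonidentity element of `Q` fixes only `a`. -/
theorem fix_only {x : G} (hx : x ∈ Q) (hx1 : x ≠ 1) {c : Ω} (h : x • c = c) : c = a := by
  by_contra hc
  obtain ⟨g, hga, hgb⟩ := exists_pair hS (ta_ne hS).symm (Ne.symm hc)
  apply hx1
  have h1 : g⁻¹ * x * g ∈ Q := by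
    simpa using conj_Q hS (h := g⁻¹) (inv_smul_eq_iff.2 hga.symm) hx
  have h2 := eq_one_of_fix_ta hS h1 (by rw [mul_smul, mul_smul, hgb, h, inv_smul_eq_iff, hgb])
  calc x = g * (g⁻¹ * x * g) * g⁻¹ := by group
    _ = 1 := by rw [h2]; group

/-- Elements of `Q` fix `a`. -/
theorem Q_smul {x : G} (hx : x ∈ Q) : x • a = a := hS.le hx

/-- `Q` is semiregular off `a`. -/
theorem eq_of_smul_eq {x y : G} (hx : x ∈ Q) (hy : y ∈ Q) {c : Ω} (hc : c ≠ a)
    (h : x • c = y • c) : x = y := by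
  by_contra hne
  apply hc
  apply fix_only hS (mul_mem (inv_mem hy) hx)
  · intro h1; exact hne (inv_mul_eq_one.1 h1).symm
  · rw [mul_smul, h, inv_smul_smul]

/-- `Q` is transitive off `a`. -/
theorem exists_Q_smul {c : Ω} (hc : c ≠ a) : ∃ q ∈ Q, q • (t • a) = c := by
  obtain ⟨g, hga, hgb⟩ := exists_pair hS (ta_ne hS).symm (Ne.symm hc)
  obtain ⟨q, hq, d, hd, rfl⟩ := exists_QD hS hga
  exact ⟨q, hq, by rw [← hgb, mul_smul]; congr 1; exact hd.2.symm⟩

/-- Images of points other than `a` under `G_a` differ from `a`. -/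
theorem smul_ne_a {g : G} (hg : g • a = a) {c : Ω} (hc : c ≠ a) : g • c ≠ a :=
  fun h => hc (smul_left_cancel g (h.trans hg.symm))

/-- Images of `t • a` under `Q` differ from `a`. -/
theorem Q_smul_ta_ne {q : G} (hq : q ∈ Q) : q • (t • a) ≠ a :=
  smul_ne_a hS (Q_smul hS hq) (ta_ne hS)

/-- `Q` is regular off `a`. -/
theorem regular {b c : Ω} (hb : b ≠ a) (hc : c ≠ a) : ∃! x : Q, (x : G) • b = c := by
  obtain ⟨p, hp, rfl⟩ := exists_Q_smul hS hb
  obtain ⟨q, hq, rfl⟩ := exists_Q_smul hS hc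
  refine ⟨⟨q * p⁻¹, mul_mem hq (inv_mem hp)⟩, by simp [mul_smul], ?_⟩
  intro y hy
  apply Subtype.ext
  apply eq_of_smul_eq hS y.2 (mul_mem hq (inv_mem hp)) hb
  rw [hy]; simp [mul_smul]

/-- Uniqueness of the factorisation `G_a = Q D`. -/
theorem QD_unique {q q' d d' : G} (hq : q ∈ Q) (hq' : q' ∈ Q) (hd : d ∈ D) (hd' : d' ∈ D)
    (h : q * d = q' * d') : q = q' ∧ d = d' := by
  have e : q • (t • a) = q' • (t • a) := by
    have h2 := congrArg (fun g : G => g • (t • a)) h
    simp only [mul_smul, show d • (t • a) = t • a from hd.2,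
      show d' • (t • a) = t • a from hd'.2] at h2
    exact h2
  have h1 := eq_of_smul_eq hS hq hq' (ta_ne hS) e
  subst h1
  exact ⟨rfl, mul_left_cancel h⟩

/-- `t` normalises `D`. -/
theorem conj_t_mem_D {d : G} (hd : d ∈ D) : t * d * t ∈ D := by
  refine ⟨?_, ?_⟩
  · change (t * d * t) • a = a
    rw [mul_smul, mul_smul, show d • (t • a) = t • a from hd.2, t_ta hS]
  · change (t * d * t) • (t • a) = t • a
    rw [mul_smul, mul_smul, t_ta hS, show d • a = a from hd.1]

/-- `t * d = (t d t) * t`. -/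
theorem t_mul_eq (d : G) : t * d = t * d * t * t := by rw [mul_assoc, hS.mul_self, mul_one]

/-- Uniqueness of the canonical form `g h t f`. -/
theorem canonical_unique {g h f g' h' f' : G} (hg : g ∈ Q) (hh : h ∈ D) (hf : f ∈ Q)
    (hg' : g' ∈ Q) (hh' : h' ∈ D) (hf' : f' ∈ Q) (e : g * h * t * f = g' * h' * t * f') :
    g = g' ∧ h = h' ∧ f = f' := by
  have key : ∀ (g h f : G), g ∈ Q → h ∈ D → f ∈ Q → (g * h * t * f)⁻¹ • a = f⁻¹ • (t • a) := by
    intro g h f hg hh _
    rw [mul_inv_rev, mul_inv_rev, mul_inv_rev, t_inv hS, mul_smul, mul_smul, mul_smul,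
      show g⁻¹ • a = a from Q_smul hS (inv_mem hg), show h⁻¹ • a = a from (inv_mem hh).1]
  have h1 : f⁻¹ = f'⁻¹ := by
    apply eq_of_smul_eq hS (inv_mem hf) (inv_mem hf') (ta_ne hS)
    rw [← key g h f hg hh hf, ← key g' h' f' hg' hh' hf', e]
  have h2 : f = f' := inv_injective h1
  subst h2
  have h3 : g * h = g' * h' := mul_right_cancel (mul_right_cancel e)
  exact ⟨(QD_unique hS hg hg' hh hh' h3).1, (QD_unique hS hg hg' hh hh' h3).2, rfl⟩

/-- Existence and uniqueness of `x t y` with `x ∈ G_a`, `y ∈ Q`. -/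
theorem canonical {g : G} (hg : g ∉ MulAction.stabilizer G a) :
    ∃! p : G × G, p.1 ∈ MulAction.stabilizer G a ∧ p.2 ∈ Q ∧ g = p.1 * t * p.2 := by
  have hne : g⁻¹ • a ≠ a := fun h => hg (inv_smul_eq_iff.1 h).symm
  obtain ⟨q, hq, hqb⟩ := exists_Q_smul hS hne
  refine ⟨(g * q * t, q⁻¹), ⟨?_, inv_mem hq, ?_⟩, ?_⟩
  · change (g * q * t) • a = a
    rw [mul_smul, mul_smul, hqb, smul_inv_smul]
  · calc g = g * q * (t * t) * q⁻¹ := by rw [hS.mul_self]; group
      _ = g * q * t * t * q⁻¹ := by group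
  · rintro ⟨x, y⟩ ⟨hx, hy, he⟩
    have h1 : y⁻¹ • (t • a) = g⁻¹ • a := by
      rw [he, mul_inv_rev, mul_inv_rev, t_inv hS, mul_smul, mul_smul,
        show x⁻¹ • a = a from inv_smul_eq_iff.2 (show x • a = a from hx).symm]
    have h2 : y⁻¹ = q := eq_of_smul_eq hS (inv_mem hy) hq (ta_ne hS) (h1.trans hqb.symm)
    have h3 : y = q⁻¹ := by rw [← h2, inv_inv]
    subst h3
    refine Prod.ext ?_ rfl
    change x = g * q * t
    simp only at he
    calc x = x * (t * t) := by rw [hS.mul_self, mul_one]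
      _ = x * t * q⁻¹ * q * t := by group
      _ = g * q * t := by rw [← he]

/-- An element moving a nonidentity element of `Q` into `G_a` lies in `G_a`. -/
theorem mem_stab_of_conj {x g : G} (hx : x ∈ Q) (hx1 : x ≠ 1) (h : (g * x * g⁻¹) • a = a) :
    g • a = a := by
  have h1 : x • (g⁻¹ • a) = g⁻¹ • a := by
    rw [mul_smul, mul_smul, smul_eq_iff_eq_inv_smul] at h
    exact h
  have := fix_only hS hx hx1 h1
  rw [inv_smul_eq_iff] at this
  exact this.symm

/-- The centraliser of a nonidentity element of `Q` lies in `G_a`. -/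
theorem mem_stab_of_commute {x g : G} (hx : x ∈ Q) (hx1 : x ≠ 1) (h : g * x = x * g) :
    g • a = a := by
  apply mem_stab_of_conj hS hx hx1
  rw [h, mul_inv_cancel_right]
  exact Q_smul hS hx

/-- The normaliser of a set containing a nonidentity element of `Q`, contained in `Q`. -/
theorem normalizer_le {X : Set G} (hX : X ⊆ (Q : Set G)) (hne : ∃ x ∈ X, x ≠ 1) :
    Subgroup.normalizer X ≤ MulAction.stabilizer G a := by
  obtain ⟨x, hxX, hx1⟩ := hne
  intro g hg
  exact mem_stab_of_conj hS (hX hxX) hx1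
    (Q_smul hS (hX ((Subgroup.mem_set_normalizer_iff.1 hg x).1 hxX)))

variable [Finite G]

/-- `Q` contains an involution. -/
theorem exists_involution_Q : ∃ s ∈ Q, s ≠ 1 ∧ s * s = 1 := by
  have : Fact (Nat.Prime 2) := ⟨Nat.prime_two⟩
  obtain ⟨x, hx⟩ := exists_prime_orderOf_dvd_card' (G := Q) 2 hS.even_card.two_dvd
  refine ⟨x, x.2, ?_, ?_⟩
  · intro h
    rw [← Subgroup.orderOf_coe, h] at hx
    simp at hx
  · have h2 := pow_orderOf_eq_one x
    rw [hx, sq] at h2
    exact congrArg Subtype.val h2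

/-- `N_G(Q) = G_a`. -/
theorem normalizer_Q : Subgroup.normalizer (Q : Set G) = MulAction.stabilizer G a := by
  obtain ⟨s, hs, hs1, -⟩ := exists_involution_Q hS
  refine le_antisymm (normalizer_le hS subset_rfl ⟨s, hs, hs1⟩) ?_
  exact Subgroup.le_normalizer_iff.2 fun h hh x hx => hS.conj_mem h hh x hx

/-- `N_G(G_a) = G_a`. -/
theorem normalizer_stab :
    Subgroup.normalizer (MulAction.stabilizer G a : Set G) = MulAction.stabilizer G a := by
  obtain ⟨s, hs, hs1, -⟩ := exists_involution_Q hS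
  refine le_antisymm ?_ Subgroup.le_normalizer
  intro g hg
  exact mem_stab_of_conj hS hs hs1 ((Subgroup.mem_normalizer_iff.1 hg s).1 (hS.le hs))

/-- `Ω` is finite. -/
theorem finite_omega : Finite Ω :=
  Finite.of_surjective (fun g : G => g • a) fun c => exists_smul_eq hS c

/-- `|Ω| = |Q| + 1`. -/
theorem card_omega : Nat.card Ω = Nat.card Q + 1 := by
  have := finite_omega hS
  classical
  let f : Option Q → Ω := fun o => o.elim a fun q => (q : G) • (t • a)
  have hf : Function.Bijective f := by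
    constructor
    · rintro (_ | p) (_ | q) h
      · rfl
      · exact absurd h.symm (Q_smul_ta_ne hS q.2)
      · exact absurd h (Q_smul_ta_ne hS p.2)
      · exact congrArg some (Subtype.ext (eq_of_smul_eq hS p.2 q.2 (ta_ne hS) h))
    · intro c
      rcases eq_or_ne c a with rfl | hc
      · exact ⟨none, rfl⟩
      · obtain ⟨q, hq, rfl⟩ := exists_Q_smul hS hc
        exact ⟨some ⟨q, hq⟩, rfl⟩
  rw [← Nat.card_eq_of_bijective f hf, Finite.card_option]

/-- `|G_a| = |Q| |D|`. -/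
theorem card_stab : Nat.card (MulAction.stabilizer G a) = Nat.card Q * Nat.card ↥D := by
  rw [← Nat.card_prod]
  symm
  refine Nat.card_eq_of_bijective
    (fun p : Q × ↥D => (⟨p.1 * p.2, mul_mem (hS.le p.1.2) p.2.2.1⟩ : MulAction.stabilizer G a))
    ⟨?_, ?_⟩
  · intro p q h
    have := QD_unique hS p.1.2 q.1.2 p.2.2 q.2.2 (congrArg Subtype.val h)
    exact Prod.ext (Subtype.ext this.1) (Subtype.ext this.2)
  · intro x
    obtain ⟨q, hq, d, hd, he⟩ := exists_QD hS x.2
    exact ⟨(⟨q, hq⟩, ⟨d, hd⟩), Subtype.ext he.symm⟩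

/-- `|G| = |Q| |D| (|Q| + 1)`. -/
theorem card_group : Nat.card G = Nat.card Q * Nat.card ↥D * (Nat.card Q + 1) := by
  have : MulAction.IsPretransitive G Ω := ⟨fun x y => by
    obtain ⟨g, rfl⟩ := exists_smul_eq hS x
    obtain ⟨h, rfl⟩ := exists_smul_eq hS y
    exact ⟨h * g⁻¹, by simp [mul_smul]⟩⟩
  rw [← Subgroup.card_mul_index (MulAction.stabilizer G a), MulAction.index_stabilizer_of_transitive,
    card_stab hS, card_omega hS]

/-- The index of `Q` is odd. -/
theorem odd_index_Q : Odd Q.index := by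
  have h : Q.index = Nat.card ↥D * (Nat.card Q + 1) := by
    apply Nat.eq_of_mul_eq_mul_left (Nat.card_pos (α := Q))
    rw [Subgroup.card_mul_index, card_group hS, mul_assoc]
  rw [h]
  exact hS.odd_card.mul (Even.add_one hS.even_card)

/-- A Sylow `2`-subgroup of `G` lies in `Q`. -/
theorem exists_sylow_le : ∃ P : Sylow 2 G, (P : Subgroup G) ≤ Q := by
  have : Fact (Nat.Prime 2) := ⟨Nat.prime_two⟩
  obtain ⟨P⟩ : Nonempty (Sylow 2 Q) := inferInstance
  set R : Subgroup G := (P : Subgroup Q).map Q.subtype with hR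
  refine ⟨⟨R, ?_, ?_⟩, Subgroup.map_subtype_le _⟩
  · exact P.isPGroup'.map _
  · intro S hS' hle
    obtain ⟨n, hn⟩ := IsPGroup.iff_card.1 hS'
    have h1 : Nat.card R = Nat.card (P : Subgroup Q) :=
      Nat.card_congr ((P : Subgroup Q).equivMapOfInjective _ Q.subtype_injective).toEquiv.symm
    have hidx : ¬ 2 ∣ R.index := by
      rw [hR, Subgroup.index_map_subtype]
      intro h
      rcases Nat.prime_two.dvd_mul.1 h with h | h
      · exact P.not_dvd_index' (Subgroup.index_ne_zero_of_finite) h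
      · exact (Nat.not_even_iff_odd.2 (odd_index_Q hS)) (even_iff_two_dvd.2 h)
    have h2 : S.index ∣ R.index := Subgroup.index_dvd_of_le hle
    have h3 : R.relIndex S * S.index = R.index := Subgroup.relIndex_mul_index hle
    have h4 : R.relIndex S ∣ 2 ^ n := hn ▸ Subgroup.relIndex_dvd_card R S
    obtain ⟨k, -, hk⟩ := (Nat.dvd_prime_pow Nat.prime_two).1 h4
    rcases Nat.eq_zero_or_pos k with rfl | hk0
    · exact le_antisymm (Subgroup.relIndex_eq_one.1 (by simpa using hk)) hle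
    · exfalso
      apply hidx
      rw [← h3, hk]
      exact Dvd.dvd.mul_right (dvd_pow_self 2 hk0.ne') _

omit [Finite G] in
/-- An element of square one in `G_a` lies in `Q`. -/
theorem mem_Q_of_mul_self {u : G} (hu : u • a = a) (h : u * u = 1) : u ∈ Q := by
  obtain ⟨q, hq, d, hd, rfl⟩ := exists_QD hS hu
  have e : q * (d * q * d⁻¹) * (d * d) = 1 := by rw [← h]; group
  have hd2 : d * d = 1 := by
    refine (QD_unique hS (mul_mem hq (conj_Q_of_mem_D hS hd hq)) (one_mem Q) (mul_mem hd hd)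
      (one_mem D) ?_).2
    rw [e, mul_one]
  have : d = 1 := eq_of_mul_self_eq (odd_orderOf hS.odd_card hd) (by simp) (by rw [hd2, one_mul])
  rwa [this, mul_one]

omit [Finite G] in
/-- Membership in the set of involutions of `G_a`. -/
theorem mem_I₀ {s : G} : s ∈ I₀ ↔ s • a = a ∧ s ≠ 1 ∧ s * s = 1 := Iff.rfl

omit [Finite G] in
/-- Involutions of `G_a` lie in `Q`. -/
theorem I₀_mem_Q {s : G} (hs : s ∈ I₀) : s ∈ Q := mem_Q_of_mul_self hS hs.1 hs.2.2

omit [Finite G] in
/-- Involutions of `G_a` fix only `a`. -/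
theorem I₀_fix {s : G} (hs : s ∈ I₀) {c : Ω} (h : s • c = c) : c = a :=
  fix_only hS (I₀_mem_Q hS hs) hs.2.1 h

omit hS [Finite G] in
/-- Conjugates of involutions are involutions. -/
theorem conj_involution {g u : G} (hu1 : u ≠ 1) (hu2 : u * u = 1) :
    g * u * g⁻¹ ≠ 1 ∧ (g * u * g⁻¹) * (g * u * g⁻¹) = 1 := by
  refine ⟨?_, ?_⟩
  · intro h; exact hu1 (conj_eq_one_iff.1 h)
  · calc g * u * g⁻¹ * (g * u * g⁻¹) = g * (u * u) * g⁻¹ := by group
      _ = 1 := by rw [hu2]; group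

/-- Product of an involution in `G_a` and one outside has odd order. -/
theorem odd_mul {s u : G} (hs : s • a = a) (hs1 : s ≠ 1) (hs2 : s * s = 1) (hu : u • a ≠ a)
    (hu2 : u * u = 1) : Odd (orderOf (s * u)) := by
  by_contra h
  obtain ⟨m, hm⟩ := Nat.not_odd_iff_even.1 h
  have hpos : 0 < orderOf (s * u) := orderOf_pos _
  set z := (s * u) ^ m with hz
  have hz2 : z * z = 1 := by rw [hz, ← pow_add, ← hm, pow_orderOf_eq_one]
  have hz1 : z ≠ 1 := pow_ne_one_of_lt_orderOf (by omega) (by omega)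
  have hzi : z⁻¹ = z := inv_eq_of_mul_eq_one_right hz2
  have hsi : s⁻¹ = s := inv_eq_of_mul_eq_one_right hs2
  have hui : u⁻¹ = u := inv_eq_of_mul_eq_one_right hu2
  have hsz : z * s = s * z := by
    have : s * z * s⁻¹ = z⁻¹ := by
      rw [hz, ← inv_pow, ← conj_pow]; congr 1
      rw [mul_inv_rev, hui, hsi, ← mul_assoc, hs2, one_mul]
    rw [hzi, mul_inv_eq_iff_eq_mul] at this
    exact this.symm
  have hsQ := mem_Q_of_mul_self hS hs hs2
  have hza := mem_stab_of_commute hS hsQ hs1 hsz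
  have hzQ := mem_Q_of_mul_self hS hza hz2
  have huz : u * z = z * u := by
    have h1 : u * z * u⁻¹ = z⁻¹ := by
      rw [hz, ← inv_pow, ← conj_pow]; congr 1
      rw [mul_inv_rev, hui, hsi, mul_assoc, mul_assoc, hu2, mul_one]
    rw [hzi, mul_inv_eq_iff_eq_mul] at h1
    exact h1
  exact hu (mem_stab_of_commute hS hzQ hz1 huz)

omit hS [Finite G] in
/-- Involutions with product of odd order are conjugate. -/
theorem conj_of_odd {s u : G} (hs2 : s * s = 1) (hu2 : u * u = 1)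
    (h : Odd (orderOf (s * u))) : ∃ g : G, g * s * g⁻¹ = u := by
  have hsi : s⁻¹ = s := inv_eq_of_mul_eq_one_right hs2
  have hui : u⁻¹ = u := inv_eq_of_mul_eq_one_right hu2
  set w := oddRoot (s * u) with hw
  have hww := oddRoot_mul_self h
  rw [← hw] at hww
  have hsw : s * w * s⁻¹ = w⁻¹ := by
    rw [hw, conj_oddRoot, ← oddRoot_inv]; congr 1
    rw [mul_inv_rev, hui, hsi, ← mul_assoc, hs2, one_mul]
  refine ⟨w⁻¹, ?_⟩
  calc w⁻¹ * s * w⁻¹⁻¹ = (s * w * s⁻¹) * s * w := by rw [hsw]; group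
    _ = s * (w * w) := by group
    _ = u := by rw [hww, ← mul_assoc, hs2, one_mul]

/-- All involutions are conjugate. -/
theorem involution_conj {u v : G} (hu1 : u ≠ 1) (hu2 : u * u = 1) (hv1 : v ≠ 1)
    (hv2 : v * v = 1) : ∃ g : G, g * u * g⁻¹ = v := by
  obtain ⟨s, hs, hs1, hs2⟩ := exists_involution_Q hS
  have key : ∀ w : G, w ≠ 1 → w * w = 1 → ∃ g : G, g * w * g⁻¹ = t := by
    intro w hw1 hw2
    by_cases hw : w • a = a
    · exact conj_of_odd hw2 hS.mul_self (odd_mul hS hw hw1 hw2 (ta_ne hS) hS.mul_self)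
    · obtain ⟨g, hg⟩ := conj_of_odd hs2 hw2 (odd_mul hS (Q_smul hS hs) hs1 hs2 hw hw2)
      obtain ⟨h, hh⟩ := conj_of_odd hs2 hS.mul_self
        (odd_mul hS (Q_smul hS hs) hs1 hs2 (ta_ne hS) hS.mul_self)
      refine ⟨h * g⁻¹, ?_⟩
      rw [← hh, ← hg]; group
  obtain ⟨g, hg⟩ := key u hu1 hu2
  obtain ⟨h, hh⟩ := key v hv1 hv2
  exact ⟨h⁻¹ * g, by
    calc h⁻¹ * g * u * (h⁻¹ * g)⁻¹ = h⁻¹ * (g * u * g⁻¹) * h := by group
      _ = v := by rw [hg, ← hh]; group⟩

/-- An involution has a unique fixed point. -/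
theorem exists_unique_fix {u : G} (hu1 : u ≠ 1) (hu2 : u * u = 1) : ∃! c : Ω, u • c = c := by
  obtain ⟨s, hs, hs1, hs2⟩ := exists_involution_Q hS
  obtain ⟨g, rfl⟩ := involution_conj hS hs1 hs2 hu1 hu2
  refine ⟨g • a, by simp [mul_smul, Q_smul hS hs], ?_⟩
  intro c hc
  have : s • (g⁻¹ • c) = g⁻¹ • c := by
    rw [mul_smul, mul_smul, smul_eq_iff_eq_inv_smul] at hc; exact hc
  rw [← fix_only hS hs hs1 this, smul_inv_smul]

/-- The fixed point of `t` differs from `a` and `t • a`. -/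
theorem exists_fix_t : ∃ c : Ω, t • c = c ∧ c ≠ a ∧ c ≠ t • a := by
  obtain ⟨c, hc, -⟩ := exists_unique_fix hS hS.ne_one hS.mul_self
  refine ⟨c, hc, ?_, ?_⟩
  · rintro rfl; exact ta_ne hS hc
  · rintro rfl; rw [t_ta hS] at hc; exact ta_ne hS hc.symm

omit [Finite G] in
/-- An involution swapping the two distinguished points is `t k` with `k ∈ K`. -/
theorem swap_eq {w : G} (hw : w • a = t • a) (hw2 : w * w = 1) : t * w ∈ K := by
  refine ⟨⟨?_, ?_⟩, ?_⟩
  · change (t * w) • a = a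
    rw [mul_smul, hw, t_ta hS]
  · change (t * w) • (t • a) = t • a
    rw [mul_smul]; congr 1
    rw [← hw, ← mul_smul, hw2, one_smul]
  · rw [t_inv hS, mul_inv_rev, t_inv hS, inv_eq_of_mul_eq_one_right hw2, ← mul_assoc, hS.mul_self,
      one_mul]

omit [Finite G] in
/-- Every involution swapping the two distinguished points is a `K`-conjugate of `t`. -/
theorem exists_conj_swap {w : G} (hw : w • a = t • a) (hw2 : w * w = 1) :
    ∃ j ∈ K, j⁻¹ * t * j = w := by
  have hk := swap_eq hS hw hw2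
  refine ⟨oddRoot (t * w), oddRoot_inverted hk, ?_⟩
  have h2 := oddRoot_mul_self (odd_orderOf hS.odd_card hk.1)
  set j := oddRoot (t * w)
  have hj : t * j * t⁻¹ = j⁻¹ := (oddRoot_inverted hk).2
  calc j⁻¹ * t * j = t * j * t⁻¹ * t * j := by rw [hj]
    _ = t * (j * j) := by group
    _ = w := by rw [h2, ← mul_assoc, hS.mul_self, one_mul]

omit [Finite G] in
/-- Elements of `K` lie in `D`. -/
theorem K_mem_D {k : G} (hk : k ∈ K) : k ∈ D := hk.1

omit [Finite G] in
/-- `t k = k⁻¹ t` for `k ∈ K`. -/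
theorem K_t {k : G} (hk : k ∈ K) : t * k = k⁻¹ * t := mul_inv_eq_iff_eq_mul.1 hk.2

omit [Finite G] in
/-- `t k⁻¹ = k t` for `k ∈ K`. -/
theorem K_t' {k : G} (hk : k ∈ K) : t * k⁻¹ = k * t := by
  have := K_t hS hk
  calc t * k⁻¹ = k * (k⁻¹ * t) * k⁻¹ := by group
    _ = k * t := by rw [← this]; group

omit [Finite G] in
/-- `j⁻¹ t j` swaps the two points, for `j ∈ D`. -/
theorem conj_t_swap {j : G} (hj : j ∈ D) : (j⁻¹ * t * j) • a = t • a := by
  rw [mul_smul, mul_smul, show j • a = a from hj.1, inv_smul_eq_iff]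
  exact hj.2.symm

omit [Finite G] in
/-- Uniqueness of `r⁻¹ w r` with `w` swapping the two points and `r ∈ Q`. -/
theorem conj_swap_unique {r r' w w' : G} (hr : r ∈ Q) (hr' : r' ∈ Q) (hw : w • a = t • a)
    (hw' : w' • a = t • a) (e : r⁻¹ * w * r = r'⁻¹ * w' * r') : r = r' ∧ w = w' := by
  have h1 := congrArg (fun g : G => g • a) e
  simp only [mul_smul, Q_smul hS hr, Q_smul hS hr', hw, hw'] at h1
  have h2 := inv_injective (eq_of_smul_eq hS (inv_mem hr) (inv_mem hr') (ta_ne hS) h1)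
  subst h2
  exact ⟨rfl, mul_left_cancel (mul_right_cancel e)⟩

omit [Finite G] in
/-- Every element of square one moving `a` is `r⁻¹ w r` with `w` swapping the two points. -/
theorem exists_conj_swap_form {u : G} (hu : u • a ≠ a) (hu2 : u * u = 1) :
    ∃ r ∈ Q, ∃ j ∈ K, u = r⁻¹ * (j⁻¹ * t * j) * r := by
  obtain ⟨r, hr, hrb⟩ := exists_Q_smul hS hu
  have hw : (r⁻¹ * u * r) • a = t • a := by
    rw [mul_smul, mul_smul, Q_smul hS hr, inv_smul_eq_iff, hrb]
  have hw2 : r⁻¹ * u * r * (r⁻¹ * u * r) = 1 := by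
    calc r⁻¹ * u * r * (r⁻¹ * u * r) = r⁻¹ * (u * u) * r := by group
      _ = 1 := by rw [hu2]; group
  obtain ⟨j, hj, he⟩ := exists_conj_swap hS hw hw2
  exact ⟨r⁻¹, inv_mem hr, j, hj, by rw [he]; group⟩

/-- The structure equation `t s t = r⁻¹ t r` has exactly one solution. -/
theorem structure_equation :
    ∃! p : G × G, p.1 ∈ I₀ ∧ p.2 ∈ Q ∧ t * p.1 * t = p.2⁻¹ * t * p.2 := by
  obtain ⟨c, hc, hca, hcb⟩ := exists_fix_t hS
  obtain ⟨r, hr, hrc⟩ := exists_Q_smul hS hca
  have ti := t_inv hS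
  refine ⟨(t * r⁻¹ * t * r * t, r), ⟨⟨?_, ?_, ?_⟩, hr, ?_⟩, ?_⟩
  · change (t * r⁻¹ * t * r * t) • a = a
    rw [mul_smul, mul_smul, mul_smul, mul_smul, hrc, hc,
      show r⁻¹ • c = t • a from inv_smul_eq_iff.2 hrc.symm, t_ta hS]
  · intro h
    simp only at h
    apply hS.ne_one
    calc t = r * t * (t * r⁻¹ * t * r * t) * t * r⁻¹ := by
            simp only [mul_assoc, ← mul_assoc t t, hS.mul_self, one_mul, mul_inv_cancel,
              mul_one, mul_inv_cancel_left]
      _ = 1 := by rw [h, mul_one, mul_assoc r t t, hS.mul_self, mul_one, mul_inv_cancel]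
  · calc t * r⁻¹ * t * r * t * (t * r⁻¹ * t * r * t)
        = t * r⁻¹ * t * r * (t * t) * r⁻¹ * t * r * t := by group
      _ = t * r⁻¹ * t * r * 1 * r⁻¹ * t * r * t := by rw [hS.mul_self]
      _ = t * r⁻¹ * (t * t) * r * t := by group
      _ = t * r⁻¹ * 1 * r * t := by rw [hS.mul_self]
      _ = t * t := by group
      _ = 1 := hS.mul_self
  · calc t * (t * r⁻¹ * t * r * t) * t = (t * t) * r⁻¹ * t * r * (t * t) := by group
      _ = r⁻¹ * t * r := by rw [hS.mul_self]; group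
  · rintro ⟨s, r'⟩ ⟨hs, hr', he⟩
    simp only at hs hr' he
    have h1 : t • (r' • (t • a)) = r' • (t • a) := by
      have : (t * s * t) • (t • a) = t • a := by
        rw [mul_smul, mul_smul, t_ta hS, show s • a = a from hs.1]
      rw [he, mul_smul, mul_smul, inv_smul_eq_iff] at this
      exact this
    have h2 : r' • (t • a) = c :=
      (exists_unique_fix hS hS.ne_one hS.mul_self).unique h1 hc
    have h3 : r' = r := eq_of_smul_eq hS hr' hr (ta_ne hS) (h2.trans hrc.symm)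
    subst h3
    refine Prod.ext ?_ rfl
    change s = t * r'⁻¹ * t * r' * t
    calc s = (t * t) * s * (t * t) := by rw [hS.mul_self]; group
      _ = t * (t * s * t) * t := by group
      _ = t * r'⁻¹ * t * r' * t := by rw [he]; group

end Cfsg.Agent.H48.RankOne
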