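import Cfsg.Agent.H48.RankOne

/-!
# The rank-one set-up: the set `K`, centralisers of subsets of `D`, fusion in `V = C_D(t)`
-/

set_option autoImplicit false

namespace Cfsg.Agent.H48.RankOne

open Cfsg MulAction

variable {G Ω : Type*} [Group G] [MulAction G Ω] {a : Ω} {t : G} {Q : Subgroup G}

local notation "D" => (MulAction.stabilizer G a ⊓ MulAction.stabilizer G (t • a))
local notation "K" =>
  Cfsg.invertedBy (MulAction.stabilizer G a ⊓ MulAction.stabilizer G (t • a)) t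
local notation "I₀" => Cfsg.involutionsIn (MulAction.stabilizer G a : Set G)

variable (hS : Cfsg.IsRankOneSetup G Ω a t Q)
include hS

/-- `K` is closed under inversion. -/
theorem K_inv {k : G} (hk : k ∈ K) : k⁻¹ ∈ K := by
  refine ⟨inv_mem hk.1, ?_⟩
  calc t * k⁻¹ * t⁻¹ = (t * k * t⁻¹)⁻¹ := by group
    _ = k⁻¹⁻¹ := by rw [hk.2]

variable [Finite G]

section Pair

variable {s r : G} (hs : s ∈ Cfsg.involutionsIn (MulAction.stabilizer G a : Set G)) (hr : r ∈ Q) (e : t * s * t = r⁻¹ * t * r)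
include hs hr e

/-- `C_D(t) = C_D(s)` for the distinguished involution `s`. -/
theorem commute_t_iff {x : G} (hx : x ∈ D) : x * t = t * x ↔ x * s = s * x := by
  constructor
  · intro h
    have hp : (x * s * x⁻¹, x * r * x⁻¹) = ((s, r) : G × G) := by
      refine (structure_equation hS).unique ⟨⟨?_, ?_, ?_⟩, conj_Q_of_mem_D hS hx hr, ?_⟩
        ⟨hs, hr, e⟩
      · change (x * s * x⁻¹) • a = a
        rw [mul_smul, mul_smul, show x⁻¹ • a = a from (inv_mem hx).1, show s • a = a from hs.1]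
        exact hx.1
      · exact (conj_involution hs.2.1 hs.2.2).1
      · exact (conj_involution hs.2.1 hs.2.2).2
      · have h' : x⁻¹ * t = t * x⁻¹ := (Commute.inv_left h).eq
        change t * (x * s * x⁻¹) * t = (x * r * x⁻¹)⁻¹ * t * (x * r * x⁻¹)
        calc t * (x * s * x⁻¹) * t = (t * x) * s * (x⁻¹ * t) := by group
          _ = x * (t * s * t) * x⁻¹ := by rw [← h, h']; group
          _ = x * r⁻¹ * (x⁻¹ * x) * t * r * x⁻¹ := by rw [e]; group
          _ = x * r⁻¹ * x⁻¹ * (t * x) * r * x⁻¹ := by rw [← h]; group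
          _ = (x * r * x⁻¹)⁻¹ * t * (x * r * x⁻¹) := by group
    have := (Prod.ext_iff.1 hp).1
    exact mul_inv_eq_iff_eq_mul.1 this
  · intro h
    set x' := t * x * t with hx'
    have hx'D : x' ∈ D := conj_t_mem_D hS hx
    have hxx : x * s * x⁻¹ = s := by rw [h, mul_inv_cancel_right]
    have hconj : x' * (t * s * t) * x'⁻¹ = t * s * t := by
      calc x' * (t * s * t) * x'⁻¹ = t * x * (t * t) * s * (t * t⁻¹) * x⁻¹ * t⁻¹ := by
            rw [hx']; group
        _ = t * (x * s * x⁻¹) * t := by rw [hS.mul_self, t_inv hS, hS.mul_self]; group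
        _ = t * s * t := by rw [hxx]
    rw [e] at hconj
    have h2 : (x' * r * x'⁻¹)⁻¹ * (x' * t * x'⁻¹) * (x' * r * x'⁻¹) = r⁻¹ * t * r := by
      rw [← hconj]; group
    have h3 := (conj_swap_unique hS (conj_Q_of_mem_D hS hx'D hr) hr
      (by simpa using conj_t_swap hS (inv_mem hx'D)) rfl h2).2
    rw [mul_inv_eq_iff_eq_mul] at h3
    -- h3 : x' * t = t * x'
    have h4 : t * x = x * t := by
      calc t * x = t * x * (t * t) := by rw [hS.mul_self, mul_one]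
        _ = x' * t := by rw [hx']; group
        _ = t * x' := h3
        _ = t * t * x * t := by rw [hx']; group
        _ = x * t := by rw [hS.mul_self, one_mul]
    exact h4.symm

/-- The involutions of `G_a` are the `K`-conjugates of the distinguished one. -/
theorem exists_K_conj {s' : G} (hs' : s' ∈ I₀) : ∃ j ∈ K, s' = j * s * j⁻¹ := by
  have hu2 : t * s' * t * (t * s' * t) = 1 := by
    calc t * s' * t * (t * s' * t) = t * s' * (t * t) * s' * t := by group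
      _ = t * (s' * s') * t := by rw [hS.mul_self]; group
      _ = 1 := by rw [hs'.2.2, mul_one, hS.mul_self]
  have hu : (t * s' * t) • a ≠ a := by
    intro h
    rw [mul_smul, mul_smul, smul_eq_iff_eq_inv_smul, t_inv hS] at h
    exact ta_ne hS (I₀_fix hS hs' h)
  obtain ⟨r', hr', j, hj, he⟩ := exists_conj_swap_form hS hu hu2
  refine ⟨j, hj, ?_⟩
  have hp : (j⁻¹ * s' * j, j * r' * j⁻¹) = ((s, r) : G × G) := by
    refine (structure_equation hS).unique ⟨⟨?_, ?_, ?_⟩, conj_Q_of_mem_D hS hj.1 hr', ?_⟩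
      ⟨hs, hr, e⟩
    · change (j⁻¹ * s' * j) • a = a
      rw [mul_smul, mul_smul, show j • a = a from hj.1.1, show s' • a = a from hs'.1]
      exact (inv_mem hj.1).1
    · simpa using (conj_involution (g := j⁻¹) hs'.2.1 hs'.2.2).1
    · simpa using (conj_involution (g := j⁻¹) hs'.2.1 hs'.2.2).2
    · change t * (j⁻¹ * s' * j) * t = (j * r' * j⁻¹)⁻¹ * t * (j * r' * j⁻¹)
      calc t * (j⁻¹ * s' * j) * t = (t * j⁻¹) * s' * t * (t * j) * t := by
            calc t * (j⁻¹ * s' * j) * t = t * j⁻¹ * s' * (1 * j) * t := by group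
              _ = t * j⁻¹ * s' * ((t * t) * j) * t := by rw [hS.mul_self]
              _ = _ := by group
        _ = j * (t * s' * t) * j⁻¹ * (t * t) := by rw [K_t' hS hj, K_t hS hj]; group
        _ = j * (t * s' * t) * j⁻¹ := by rw [hS.mul_self, mul_one]
        _ = _ := by rw [he]; group
  have h1 : j⁻¹ * s' * j = s := (Prod.ext_iff.1 hp).1
  rw [← h1]; group

/-- `C_D(t) = C_D(s)` as subgroups. -/
theorem V_eq_centralizer :
    D ⊓ Subgroup.centralizer {t} = D ⊓ Subgroup.centralizer {s} := by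
  ext x
  simp only [Subgroup.mem_inf, Subgroup.mem_centralizer_singleton_iff]
  exact ⟨fun h => ⟨h.1, (commute_t_iff hS hs hr e h.1).1 h.2⟩,
    fun h => ⟨h.1, (commute_t_iff hS hs hr e h.1).2 h.2⟩⟩

/-- `k ↦ k⁻¹ (i s i⁻¹) k` is injective on `K`. -/
theorem conj_injective {i k k' : G} (hi : i ∈ K) (hk : k ∈ K) (hk' : k' ∈ K)
    (h : k⁻¹ * (i * s * i⁻¹) * k = k'⁻¹ * (i * s * i⁻¹) * k') : k = k' := by
  set x := i⁻¹ * k' * k⁻¹ * i with hx
  have hxD : x ∈ D := mul_mem (mul_mem (mul_mem (inv_mem hi.1) hk'.1) (inv_mem hk.1)) hi.1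
  have hxs : x * s = s * x := by
    calc x * s = i⁻¹ * k' * (k⁻¹ * (i * s * i⁻¹) * k) * k⁻¹ * i := by rw [hx]; group
      _ = i⁻¹ * k' * (k'⁻¹ * (i * s * i⁻¹) * k') * k⁻¹ * i := by rw [h]
      _ = s * x := by rw [hx]; group
  have hxt := (commute_t_iff hS hs hr e hxD).2 hxs
  have hconj : t * x * t⁻¹ = x := by rw [← hxt, mul_inv_cancel_right]
  have h1 : t * x * t⁻¹ = i * k'⁻¹ * k * i⁻¹ := by
    calc t * x * t⁻¹ =
          (t * i * t⁻¹)⁻¹ * (t * k' * t⁻¹) * (t * k * t⁻¹)⁻¹ * (t * i * t⁻¹) := by rw [hx]; group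
      _ = i * k'⁻¹ * k * i⁻¹ := by rw [hi.2, hk'.2, hk.2, inv_inv, inv_inv]
  rw [hconj, hx] at h1
  -- h1 : i⁻¹ * k' * k⁻¹ * i = i * k'⁻¹ * k * i⁻¹
  have hodd : ∀ {g : G}, g ∈ D → Odd (orderOf g) := fun hg => odd_orderOf hS.odd_card hg
  have h2 : k'⁻¹ * (i * i) * k'⁻¹ = k⁻¹ * (i * i) * k⁻¹ := by
    calc k'⁻¹ * (i * i) * k'⁻¹ = k'⁻¹ * i * (i * k'⁻¹ * k * i⁻¹) * i * k⁻¹ := by group
      _ = k'⁻¹ * i * (i⁻¹ * k' * k⁻¹ * i) * i * k⁻¹ := by rw [← h1]
      _ = k⁻¹ * (i * i) * k⁻¹ := by group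
  have h3 : i * k'⁻¹ * i = i * k⁻¹ * i := by
    apply eq_of_mul_self_eq (hodd (mul_mem (mul_mem hi.1 (inv_mem hk'.1)) hi.1))
      (hodd (mul_mem (mul_mem hi.1 (inv_mem hk.1)) hi.1))
    calc i * k'⁻¹ * i * (i * k'⁻¹ * i) = i * (k'⁻¹ * (i * i) * k'⁻¹) * i := by group
      _ = i * (k⁻¹ * (i * i) * k⁻¹) * i := by rw [h2]
      _ = i * k⁻¹ * i * (i * k⁻¹ * i) := by group
  exact (inv_injective (mul_left_cancel (mul_right_cancel h3))).symm

/-- `|K| = |I ∩ G_a|`. -/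
theorem card_K : Nat.card K = Nat.card I₀ := by
  refine Nat.card_eq_of_bijective (fun k : K => (⟨(k : G)⁻¹ * s * k, ?_, ?_, ?_⟩ : I₀)) ⟨?_, ?_⟩
  · change ((k : G)⁻¹ * s * k) • a = a
    rw [mul_smul, mul_smul, show (k : G) • a = a from k.2.1.1, show s • a = a from hs.1]
    exact (inv_mem k.2.1).1
  · simpa using (conj_involution (g := (k : G)⁻¹) hs.2.1 hs.2.2).1
  · simpa using (conj_involution (g := (k : G)⁻¹) hs.2.1 hs.2.2).2
  · intro k k' h
    have h1 : (1 : G) ∈ K := ⟨one_mem D, by simp⟩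
    exact Subtype.ext (conj_injective hS hs hr e h1 k.2 k'.2
      (by simpa using congrArg Subtype.val h))
  · intro x
    obtain ⟨j, hj, hx⟩ := exists_K_conj hS hs hr e x.2
    exact ⟨⟨j⁻¹, K_inv hS hj⟩, Subtype.ext (by simp [hx])⟩

/-- `K` permutes the involutions of `G_a` transitively, whatever the starting one. -/
theorem K_transitive {s₁ s₂ : G} (h₁ : s₁ ∈ I₀) (h₂ : s₂ ∈ I₀) :
    ∃ k ∈ K, k⁻¹ * s₁ * k = s₂ := by
  obtain ⟨i, hi, rfl⟩ := exists_K_conj hS hs hr e h₁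
  have : Finite K := Subtype.finite
  have : Finite I₀ := Subtype.finite
  let f : K → I₀ := fun k => ⟨(k : G)⁻¹ * (i * s * i⁻¹) * k, by
      change ((k : G)⁻¹ * (i * s * i⁻¹) * k) • a = a
      rw [mul_smul, mul_smul, show (k : G) • a = a from k.2.1.1,
        show (i * s * i⁻¹) • a = a from h₁.1]
      exact (inv_mem k.2.1).1,
    by simpa using (conj_involution (g := (k : G)⁻¹) h₁.2.1 h₁.2.2).1,
    by simpa using (conj_involution (g := (k : G)⁻¹) h₁.2.1 h₁.2.2).2⟩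
  have hinj : Function.Injective f := fun k k' h =>
    Subtype.ext (conj_injective hS hs hr e hi k.2 k'.2 (congrArg Subtype.val h))
  obtain ⟨k, hk⟩ := ((Nat.bijective_iff_injective_and_card f).2
    ⟨hinj, card_K hS hs hr e⟩).2 ⟨s₂, h₂⟩
  exact ⟨k, k.2, congrArg Subtype.val hk⟩

/-- `C_D(t) ⊓ C_D(K)` is the centraliser in `D` of the involutions of `G_a`. -/
theorem W_eq :
    D ⊓ Subgroup.centralizer {t} ⊓ Subgroup.centralizer K = D ⊓ Subgroup.centralizer I₀ := by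
  ext x
  simp only [Subgroup.mem_inf, Subgroup.mem_centralizer_iff, Set.mem_singleton_iff, forall_eq]
  constructor
  · rintro ⟨⟨hxD, hxt⟩, hxK⟩
    refine ⟨hxD, fun s' hs' => ?_⟩
    obtain ⟨j, hj, rfl⟩ := exists_K_conj hS hs hr e hs'
    have h1 : Commute x s := (commute_t_iff hS hs hr e hxD).1 hxt.symm
    have h2 : Commute x j := (hxK j hj).symm
    exact ((h2.mul_right h1).mul_right h2.inv_right).eq.symm
  · rintro ⟨hxD, hxI⟩
    have hxt := (commute_t_iff hS hs hr e hxD).2 (hxI s hs).symm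
    refine ⟨⟨hxD, hxt.symm⟩, fun k hk => ?_⟩
    have hs' : k * s * k⁻¹ ∈ I₀ := by
      refine ⟨?_, (conj_involution hs.2.1 hs.2.2).1, (conj_involution hs.2.1 hs.2.2).2⟩
      change (k * s * k⁻¹) • a = a
      rw [mul_smul, mul_smul, show k⁻¹ • a = a from (inv_mem hk.1).1, show s • a = a from hs.1]
      exact hk.1.1
    set y := k⁻¹ * x * k with hy
    have hyD : y ∈ D := mul_mem (mul_mem (inv_mem hk.1) hxD) hk.1
    have hys : y * s = s * y := by
      calc y * s = k⁻¹ * (x * (k * s * k⁻¹)) * k := by rw [hy]; group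
        _ = k⁻¹ * ((k * s * k⁻¹) * x) * k := by rw [hxI _ hs']
        _ = s * y := by rw [hy]; group
    have hyt := (commute_t_iff hS hs hr e hyD).2 hys
    have h1 : t * y * t⁻¹ = y := by rw [← hyt, mul_inv_cancel_right]
    have h2 : t * y * t⁻¹ = k * x * k⁻¹ := by
      calc t * y * t⁻¹ = (t * k * t⁻¹)⁻¹ * (t * x * t⁻¹) * (t * k * t⁻¹) := by rw [hy]; group
        _ = k * x * k⁻¹ := by rw [hk.2, ← hxt, mul_inv_cancel_right, inv_inv]
    rw [h1, hy] at h2
    have h3 : Commute (k * k) x := by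
      change k * k * x = x * (k * k)
      calc k * k * x = k * (k * x * k⁻¹) * k := by group
        _ = k * (k⁻¹ * x * k) * k := by rw [← h2]
        _ = x * (k * k) := by group
    exact (commute_of_commute_mul_self (odd_orderOf hS.odd_card hk.1) h3).eq

end Pair

section ThreePoints

variable {X : Set G}

omit [Finite G] in
/-- An element of `Q` joining two common fixed points of `x ∈ G_a` commutes with `x`. -/
theorem commute_of_fix {x q : G} {d₁ d₂ : Ω} (hq : q ∈ Q) (h1 : d₁ ≠ a) (hxa : x • a = a)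
    (hx1 : x • d₁ = d₁) (hx2 : x • d₂ = d₂) (hqd : q • d₁ = d₂) : x * q = q * x := by
  have : x * q * x⁻¹ = q := by
    refine eq_of_smul_eq hS (conj_Q hS hxa hq) hq h1 ?_
    rw [mul_smul, mul_smul, inv_smul_eq_iff.2 hx1.symm, hqd, hx2]
  exact mul_inv_eq_iff_eq_mul.1 this

omit [Finite G] in
/-- Fixed points of `X` other than a given one are permuted transitively by its centraliser. -/
theorem centralizer_move {c d₁ d₂ : Ω} (hX : ∀ x ∈ X, x • c = c ∧ x • d₁ = d₁ ∧ x • d₂ = d₂)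
    (h1 : d₁ ≠ c) (h2 : d₂ ≠ c) :
    ∃ g ∈ Subgroup.centralizer X, g • c = c ∧ g • d₁ = d₂ := by
  obtain ⟨h, rfl⟩ := exists_smul_eq hS c
  have n1 : h⁻¹ • d₁ ≠ a := fun e => h1 (inv_smul_eq_iff.1 e)
  have n2 : h⁻¹ • d₂ ≠ a := fun e => h2 (inv_smul_eq_iff.1 e)
  obtain ⟨q, hq, -⟩ := regular hS n1 n2
  refine ⟨h * q * h⁻¹, ?_, by simp [mul_smul, Q_smul hS q.2], by simp [mul_smul, hq]⟩
  rw [Subgroup.mem_centralizer_iff]
  intro x hx
  obtain ⟨e0, e1, e2⟩ := hX x hx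
  have hc : (h⁻¹ * x * h) * q = q * (h⁻¹ * x * h) :=
    commute_of_fix hS q.2 n1 (by simp [mul_smul, e0]) (by simp [mul_smul, e1])
      (by simp [mul_smul, e2]) hq
  calc x * (h * q * h⁻¹) = h * ((h⁻¹ * x * h) * q) * h⁻¹ := by group
    _ = h * (q * (h⁻¹ * x * h)) * h⁻¹ := by rw [hc]
    _ = h * q * h⁻¹ * x := by group

omit hS [Finite G] in
/-- Elements commuting with `X` preserve its fixed points. -/
theorem fix_of_centralizer {g : G} (hg : g ∈ Subgroup.centralizer X) {c : Ω}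
    (hc : ∀ x ∈ X, x • c = c) : ∀ x ∈ X, x • (g • c) = g • c := by
  intro x hx
  rw [← mul_smul, Subgroup.mem_centralizer_iff.1 hg x hx, mul_smul, hc x hx]

variable (h3 : ∃ b c d : Ω, b ≠ c ∧ b ≠ d ∧ c ≠ d ∧ ∀ x ∈ X, x • b = b ∧ x • c = c ∧ x • d = d)
include h3

omit [Finite G] in
/-- The centraliser of `X` is doubly transitive on its fixed points. -/
theorem centralizer_pair {b₁ b₂ c₁ c₂ : Ω}
    (hX : ∀ x ∈ X, x • b₁ = b₁ ∧ x • b₂ = b₂ ∧ x • c₁ = c₁ ∧ x • c₂ = c₂)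
    (hb : b₁ ≠ b₂) (hc : c₁ ≠ c₂) :
    ∃ g ∈ Subgroup.centralizer X, g • b₁ = c₁ ∧ g • b₂ = c₂ := by
  obtain ⟨b, c, d, hbc, hbd, hcd, hfix⟩ := h3
  obtain ⟨e, he1, he2, he⟩ : ∃ e, e ≠ b₁ ∧ e ≠ c₁ ∧ ∀ x ∈ X, x • e = e := by
    by_cases hb' : b ≠ b₁ ∧ b ≠ c₁
    · exact ⟨b, hb'.1, hb'.2, fun x hx => (hfix x hx).1⟩
    by_cases hc' : c ≠ b₁ ∧ c ≠ c₁
    · exact ⟨c, hc'.1, hc'.2, fun x hx => (hfix x hx).2.1⟩
    exact ⟨d, by grind, by grind, fun x hx => (hfix x hx).2.2⟩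
  obtain ⟨g₁, hg₁, -, hg₁b⟩ := centralizer_move hS (c := e) (d₁ := b₁) (d₂ := c₁)
    (fun x hx => ⟨he x hx, (hX x hx).1, (hX x hx).2.2.1⟩) he1.symm he2.symm
  have hne : g₁ • b₂ ≠ c₁ := fun h => hb (smul_left_cancel g₁ (hg₁b.trans h.symm))
  obtain ⟨g₂, hg₂, hg₂c, hg₂d⟩ := centralizer_move hS (c := c₁) (d₁ := g₁ • b₂) (d₂ := c₂)
    (fun x hx => ⟨(hX x hx).2.2.1, fix_of_centralizer hg₁ (fun x hx => (hX x hx).2.1) x hx,
      (hX x hx).2.2.2⟩) hne hc.symm
  exact ⟨g₂ * g₁, mul_mem hg₂ hg₁, by rw [mul_smul, hg₁b, hg₂c], by rw [mul_smul, hg₂d]⟩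

variable (hXD : X ⊆ ((MulAction.stabilizer G a ⊓ MulAction.stabilizer G (t • a)) : Set G))
include hXD

/-- The centraliser of `X` contains an involution of `G_a`. -/
theorem exists_involution_centralizer : ∃ w ∈ I₀, w ∈ Subgroup.centralizer X := by
  have fa : ∀ x ∈ X, x • a = a := fun x hx => (hXD hx).1
  have fb : ∀ x ∈ X, x • (t • a) = t • a := fun x hx => (hXD hx).2
  obtain ⟨g, hg, hga, hgb⟩ := centralizer_pair hS h3
    (fun x hx => ⟨fa x hx, fb x hx, fb x hx, fa x hx⟩) (ta_ne hS).symm (ta_ne hS)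
  have hev : Even (orderOf g) := by
    by_contra h
    have h2 : g * g ∈ MulAction.stabilizer G a := by
      change (g * g) • a = a
      rw [mul_smul, hga, hgb]
    have := oddRoot_mem h2
    rw [oddRoot_mul_self' (Nat.not_even_iff_odd.1 h)] at this
    exact ta_ne hS (hga.symm.trans this)
  obtain ⟨m, hm⟩ := hev
  have hpos := orderOf_pos g
  set w := g ^ m
  have hwC : w ∈ Subgroup.centralizer X := pow_mem hg m
  have hw1 : w ≠ 1 := pow_ne_one_of_lt_orderOf (by omega) (by omega)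
  have hw2 : w * w = 1 := by rw [← pow_add, ← hm, pow_orderOf_eq_one]
  obtain ⟨p, hp, huniq⟩ := exists_unique_fix hS hw1 hw2
  have fp : ∀ x ∈ X, x • p = p := fun x hx => huniq _ (by
    change w • (x • p) = x • p
    rw [← mul_smul, ← Subgroup.mem_centralizer_iff.1 hwC x hx, mul_smul, hp])
  rcases eq_or_ne p a with rfl | hpa
  · exact ⟨w, ⟨hp, hw1, hw2⟩, hwC⟩
  obtain ⟨h, hh, hpa', -⟩ := centralizer_pair hS h3
    (fun x hx => ⟨fp x hx, fa x hx, fa x hx, fp x hx⟩) hpa hpa.symm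
  refine ⟨h * w * h⁻¹, ⟨?_, (conj_involution hw1 hw2).1, (conj_involution hw1 hw2).2⟩,
    mul_mem (mul_mem hh hwC) (inv_mem hh)⟩
  change (h * w * h⁻¹) • a = a
  rw [mul_smul, mul_smul, inv_smul_eq_iff.2 hpa'.symm, hp, hpa']

/-- `|C_Q(X)|` is even. -/
theorem even_centralizer_Q : Even (Nat.card ↥(Subgroup.centralizer X ⊓ Q)) := by
  obtain ⟨w, hw, hwC⟩ := exists_involution_centralizer hS h3 hXD
  have hwQ : w ∈ Subgroup.centralizer X ⊓ Q := ⟨hwC, I₀_mem_Q hS hw⟩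
  rw [even_iff_two_dvd, ← orderOf_eq_prime (x := w) (p := 2) (by rw [sq]; exact hw.2.2) hw.2.1,
    ← Subgroup.orderOf_mk w hwQ]
  exact orderOf_dvd_natCard _

/-- `X` is `D`-conjugate into `C_D(t)`. -/
theorem exists_conj_into_V :
    ∃ k ∈ D, ∀ x ∈ X, (k * x * k⁻¹) * t = t * (k * x * k⁻¹) := by
  obtain ⟨w, hw, hwC⟩ := exists_involution_centralizer hS h3 hXD
  have fa : ∀ x ∈ X, x • a = a := fun x hx => (hXD hx).1
  have fb : ∀ x ∈ X, x • (t • a) = t • a := fun x hx => (hXD hx).2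
  have hd := fix_of_centralizer hwC fb
  have hne : t • a ≠ w • (t • a) := fun h => ta_ne hS (I₀_fix hS hw h.symm)
  obtain ⟨h, hh, h1, h2⟩ := centralizer_pair hS h3
    (fun x hx => ⟨fb x hx, hd x hx, fa x hx, fb x hx⟩) hne (ta_ne hS).symm
  have hsw : (h * w * h⁻¹) • a = t • a := by
    rw [mul_smul, mul_smul, inv_smul_eq_iff.2 h1.symm, h2]
  obtain ⟨j, hj, he⟩ := exists_conj_swap hS hsw (conj_involution hw.2.1 hw.2.2).2
  refine ⟨j, hj.1, fun x hx => ?_⟩
  have hcom : x * (j⁻¹ * t * j) = j⁻¹ * t * j * x := by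
    rw [he]
    exact Subgroup.mem_centralizer_iff.1 (mul_mem (mul_mem hh hwC) (inv_mem hh)) x hx
  calc j * x * j⁻¹ * t = j * (x * (j⁻¹ * t * j)) * j⁻¹ := by group
    _ = j * (j⁻¹ * t * j * x) * j⁻¹ := by rw [hcom]
    _ = t * (j * x * j⁻¹) := by group

end ThreePoints

omit [Finite G] in
/-- `C_{G_a}(X) = C_Q(X) C_D(X)` for `X ⊆ D`. -/
theorem centralizer_stab {X : Set G} (hXD : X ⊆ (D : Set G)) :
    (Subgroup.centralizer X ⊓ Q) ⊔ (Subgroup.centralizer X ⊓ D) =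
      Subgroup.centralizer X ⊓ MulAction.stabilizer G a := by
  refine le_antisymm (sup_le (inf_le_inf_left _ hS.le) (inf_le_inf_left _ inf_le_left)) ?_
  rintro g ⟨hg, hga⟩
  obtain ⟨q, hq, d, hd, rfl⟩ := exists_QD hS hga
  have key : ∀ x ∈ X, x * q = q * x ∧ x * d = d * x := by
    intro x hx
    have h := Subgroup.mem_centralizer_iff.1 hg x hx
    have h1 : (x * q * x⁻¹) * (x * d * x⁻¹) = q * d := by
      calc (x * q * x⁻¹) * (x * d * x⁻¹) = x * (q * d) * x⁻¹ := by group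
        _ = q * d := by rw [h, mul_inv_cancel_right]
    obtain ⟨h2, h3⟩ := QD_unique hS (conj_Q_of_mem_D hS (hXD hx) hq) hq
      (mul_mem (mul_mem (hXD hx) hd) (inv_mem (hXD hx))) hd h1
    exact ⟨mul_inv_eq_iff_eq_mul.1 h2, mul_inv_eq_iff_eq_mul.1 h3⟩
  exact Subgroup.mul_mem_sup ⟨Subgroup.mem_centralizer_iff.2 fun x hx => (key x hx).1, hq⟩
    ⟨Subgroup.mem_centralizer_iff.2 fun x hx => (key x hx).2, hd⟩

/-- An element of `D` inverted by an involution swapping the two points and fixing a third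
point is trivial. -/
theorem eq_one_of_inverted {x w : G} (hx : x ∈ D) (hw : w • a = t • a) (hw2 : w * w = 1)
    (hinv : w * x * w⁻¹ = x⁻¹) {d : Ω} (hda : d ≠ a) (hdb : d ≠ t • a) (hxd : x • d = d) :
    x = 1 := by
  obtain ⟨k, hk, hkc⟩ := exists_conj_into_V hS (X := {x})
    ⟨a, t • a, d, (ta_ne hS).symm, hda.symm, hdb.symm, by
      rintro y rfl; exact ⟨hx.1, hx.2, hxd⟩⟩ (Set.singleton_subset_iff.2 hx)
  have hy := hkc x rfl
  set y := k * x * k⁻¹ with hyd
  have hyD : y ∈ D := mul_mem (mul_mem hk hx) (inv_mem hk)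
  set w' := k * w * k⁻¹ with hw'
  have hw'a : w' • a = t • a := by
    rw [hw', mul_smul, mul_smul, show k⁻¹ • a = a from (inv_mem hk).1, hw]
    exact hk.2
  have hw'2 : w' * w' = 1 := by
    calc w' * w' = k * (w * w) * k⁻¹ := by rw [hw']; group
      _ = 1 := by rw [hw2]; group
  have hm := (swap_eq hS hw'a hw'2).1
  have hinv' : w' * y * w'⁻¹ = y⁻¹ := by
    calc w' * y * w'⁻¹ = k * (w * x * w⁻¹) * k⁻¹ := by rw [hw', hyd]; group
      _ = y⁻¹ := by rw [hinv, hyd]; group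
  have hm' : (t * w') * y * (t * w')⁻¹ = y⁻¹ := by
    calc (t * w') * y * (t * w')⁻¹ = t * (w' * y * w'⁻¹) * t⁻¹ := by group
      _ = y⁻¹ := by
        rw [hinv', mul_inv_eq_iff_eq_mul]
        exact (Commute.inv_left (show Commute y t from hy)).eq.symm
  have h1 := eq_one_of_conj_eq_inv hS.odd_card hm hyD hm'
  calc x = k⁻¹ * y * k := by rw [hyd]; group
    _ = 1 := by rw [h1]; group

/-- Nonidentity elements of `K` act fixed-point-freely on `Q`. -/
theorem K_fpf {x : G} (hx : x ∈ K) (hx1 : x ≠ 1) : Q ⊓ Subgroup.centralizer {x} = ⊥ := by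
  rw [Subgroup.eq_bot_iff_forall]
  rintro q ⟨hq, hqc⟩
  by_contra hq1
  apply hx1
  refine eq_one_of_inverted hS hx.1 rfl hS.mul_self hx.2 (d := q • (t • a))
    (Q_smul_ta_ne hS hq) (fun h => hq1 (eq_one_of_fix_ta hS hq h)) ?_
  rw [← mul_smul, ← Subgroup.mem_centralizer_singleton_iff.1 hqc, mul_smul]
  congr 1
  exact hx.1.2

/-- Every element of `V = C_D(t)` fixes the fixed point of `t`. -/
theorem V_fix {c : Ω} (hc : t • c = c) {v : G} (hv : v * t = t * v) : v • c = c :=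
  (exists_unique_fix hS hS.ne_one hS.mul_self).unique
    (by rw [← mul_smul, ← hv, mul_smul, hc]) hc

/-- Subsets of `V` conjugate in `G` are conjugate in `V`. -/
theorem fusion_in_V {X : Set G}
    (hX : X ⊆ ((D ⊓ Subgroup.centralizer {t} : Subgroup G) : Set G)) {g : G}
    (hY : (fun x => g * x * g⁻¹) '' X ⊆ ((D ⊓ Subgroup.centralizer {t} : Subgroup G) : Set G)) :
    ∃ v ∈ D ⊓ Subgroup.centralizer {t}, ∀ x ∈ X, v * x * v⁻¹ = g * x * g⁻¹ := by
  set Y := (fun x => g * x * g⁻¹) '' X with hYdef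
  obtain ⟨c, hc, hca, hcb⟩ := exists_fix_t hS
  have hcom : ∀ y ∈ Y, y * t = t * y := fun y hy =>
    Subgroup.mem_centralizer_singleton_iff.1 (hY hy).2
  have h3 : ∃ b c d : Ω, b ≠ c ∧ b ≠ d ∧ c ≠ d ∧ ∀ y ∈ Y, y • b = b ∧ y • c = c ∧ y • d = d :=
    ⟨a, t • a, c, (ta_ne hS).symm, hca.symm, hcb.symm, fun y hy =>
      ⟨(hY hy).1.1, (hY hy).1.2, V_fix hS hc (hcom y hy)⟩⟩
  have fg : ∀ (p : Ω), (∀ x ∈ X, x • p = p) → ∀ y ∈ Y, y • (g • p) = g • p := by
    rintro p hp y ⟨x, hx, rfl⟩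
    simp [mul_smul, hp x hx]
  obtain ⟨c', hc', h1, h2⟩ := centralizer_pair hS h3 (b₁ := g • a) (b₂ := g • (t • a))
    (c₁ := a) (c₂ := t • a) (fun y hy =>
      ⟨fg a (fun x hx => (hX hx).1.1) y hy, fg _ (fun x hx => (hX hx).1.2) y hy, (hY hy).1.1,
        (hY hy).1.2⟩)
    (fun h => (ta_ne hS) (smul_left_cancel g h).symm) (ta_ne hS).symm
  have hdD : c' * g ∈ D := by
    refine ⟨?_, ?_⟩
    · change (c' * g) • a = a
      rw [mul_smul, h1]
    · change (c' * g) • (t • a) = t • a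
      rw [mul_smul, h2]
  obtain ⟨v, k, hvD, hvt, hk, hd⟩ :=
    exists_factor hS.mul_self (X := D) (fun x hx => by
      rw [t_inv hS]; exact conj_t_mem_D hS hx) hS.odd_card hdD
  refine ⟨v, ⟨hvD, Subgroup.mem_centralizer_singleton_iff.2 hvt.symm⟩, fun x hx => ?_⟩
  have hy : c' * g * x * (c' * g)⁻¹ = g * x * g⁻¹ := by
    have := Subgroup.mem_centralizer_iff.1 hc' (g * x * g⁻¹) ⟨x, hx, rfl⟩
    calc c' * g * x * (c' * g)⁻¹ = c' * (g * x * g⁻¹) * c'⁻¹ := by group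
      _ = g * x * g⁻¹ := by rw [← this, mul_inv_cancel_right]
  rw [hd] at hy
  have hxt : Commute t x := (Subgroup.mem_centralizer_singleton_iff.1 (hX hx).2).symm
  have hyt : Commute t (g * x * g⁻¹) := (hcom _ ⟨x, hx, rfl⟩).symm
  have hvt' : Commute t v := hvt
  have hkx : Commute t (k * x * k⁻¹) := by
    have : k * x * k⁻¹ = v⁻¹ * (g * x * g⁻¹) * v := by rw [← hy]; group
    rw [this]
    exact (hvt'.inv_right.mul_right hyt).mul_right hvt'
  have e1 : t * (k * x * k⁻¹) * t⁻¹ = k⁻¹ * x * k := by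
    calc t * (k * x * k⁻¹) * t⁻¹ = (t * k * t⁻¹) * (t * x * t⁻¹) * (t * k * t⁻¹)⁻¹ := by group
      _ = k⁻¹ * x * k := by rw [hk.2, hxt.eq, mul_inv_cancel_right, inv_inv]
  rw [hkx.eq, mul_inv_cancel_right] at e1
  have h3 : Commute (k * k) x := by
    change k * k * x = x * (k * k)
    calc k * k * x = k * (k * x * k⁻¹) * k := by group
      _ = k * (k⁻¹ * x * k) * k := by rw [e1]
      _ = x * (k * k) := by group
  have h4 := (commute_of_commute_mul_self (odd_orderOf hS.odd_card hk.1) h3).eq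
  rw [← hy]
  calc v * x * v⁻¹ = v * (x * k) * k⁻¹ * v⁻¹ := by group
    _ = v * k * x * (v * k)⁻¹ := by rw [← h4]; group

/-- If two involutions with distinct fixed points have product `x`, then `C(x)` has odd order. -/
theorem odd_centralizer_mul {u v : G} (hu1 : u ≠ 1) (hu2 : u * u = 1) (hv1 : v ≠ 1)
    (hv2 : v * v = 1) (hfix : ∀ p : Ω, u • p = p → v • p ≠ p) (hx : u * v ≠ 1) :
    Odd (Nat.card ↥(Subgroup.centralizer {u * v})) := by
  by_contra hev
  have : Fact (Nat.Prime 2) := ⟨Nat.prime_two⟩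
  obtain ⟨⟨w, hwC⟩, hw⟩ := exists_prime_orderOf_dvd_card' (G := Subgroup.centralizer {u * v}) 2
    (Nat.not_odd_iff_even.1 hev).two_dvd
  rw [Subgroup.orderOf_mk] at hw
  have hw1 : w ≠ 1 := fun h => by rw [h, orderOf_one] at hw; omega
  have hw2 : w * w = 1 := by rw [← sq, ← hw, pow_orderOf_eq_one]
  set x := u * v with hxdef
  have hwx : w * x = x * w := Subgroup.mem_centralizer_singleton_iff.1 hwC
  obtain ⟨p, hp, huniq⟩ := exists_unique_fix hS hw1 hw2
  have hxp : x • p = p := huniq _ (by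
    change w • (x • p) = x • p
    rw [← mul_smul, hwx, mul_smul, hp])
  have hui : u⁻¹ = u := inv_eq_of_mul_eq_one_right hu2
  have hinv : u * x * u⁻¹ = x⁻¹ := by
    rw [hxdef, hui, ← mul_assoc u u v, hu2, one_mul, mul_inv_rev,
      inv_eq_of_mul_eq_one_right hv2, hui]
  have hup : u • p ≠ p := by
    intro h
    apply hfix p h
    rw [hxdef, mul_smul, ← eq_inv_smul_iff, hui, h] at hxp
    exact hxp
  have hxq : x • (u • p) = u • p := by
    have : x * u = u * x⁻¹ := by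
      calc x * u = u * (u⁻¹ * x * u) := by group
        _ = u * (u * x * u⁻¹) := by rw [hui]
        _ = u * x⁻¹ := by rw [hinv]
    rw [← mul_smul, this, mul_smul, inv_smul_eq_iff.2 hxp.symm]
  obtain ⟨h, h1, h2⟩ := exists_pair hS (Ne.symm hup) (ta_ne hS).symm
  have hxD : h * x * h⁻¹ ∈ D := by
    refine ⟨?_, ?_⟩
    · change (h * x * h⁻¹) • a = a
      rw [mul_smul, mul_smul, inv_smul_eq_iff.2 h1.symm, hxp, h1]
    · change (h * x * h⁻¹) • (t • a) = t • a
      rw [mul_smul, mul_smul, inv_smul_eq_iff.2 h2.symm, hxq, h2]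
  have hd : w • (u • p) ≠ u • p := fun h => hup (huniq _ h)
  have hx1 : h * x * h⁻¹ = 1 := by
    refine eq_one_of_inverted hS hxD (w := h * u * h⁻¹) ?_ (conj_involution hu1 hu2).2 ?_
      (d := h • (w • (u • p))) ?_ ?_ ?_
    · rw [mul_smul, mul_smul, inv_smul_eq_iff.2 h1.symm, h2]
    · calc h * u * h⁻¹ * (h * x * h⁻¹) * (h * u * h⁻¹)⁻¹ = h * (u * x * u⁻¹) * h⁻¹ := by group
        _ = (h * x * h⁻¹)⁻¹ := by rw [hinv]; group
    · rw [← h1, (MulAction.injective h).ne_iff]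
      intro e'
      rw [smul_eq_iff_eq_inv_smul, inv_eq_of_mul_eq_one_right hw2, hp] at e'
      exact hup e'
    · rw [← h2, (MulAction.injective h).ne_iff]; exact hd
    · rw [mul_smul, mul_smul, inv_smul_smul, ← mul_smul x, ← hwx, mul_smul, hxq]
  exact hx (conj_eq_one_iff.1 hx1)

section Multiplication

omit [Finite G] in
/-- (H6) The product rule for the functions `g, h, f`. -/
theorem product_form {hy fz fy : G} :
    t * fz * (t * hy * t) * fy = t * (t * hy * t) * ((t * hy * t)⁻¹ * fz * (t * hy * t) * fy) := by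
  group

end Multiplication

end Cfsg.Agent.H48.RankOne
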